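import Cfsg.Agent.H997.FE.CB
import Cfsg.Agent.H930.FC.Spin

/-!
# S2452, `F₄(q)`, `q` even: `OB3e` from (U4) (helper997)
-/

set_option autoImplicit false
set_option linter.unusedSectionVars false

namespace Cfsg.Agent.H997.FE

open Subgroup CoxeterSystem Cfsg.Agent.ChevalleyStructure.CoxeterGeom Cfsg.Agent.Tits.Roots Cfsg.Agent.Tits.Core
  Cfsg.Agent.Nodes.LeviDec Cfsg.Agent.Nodes.Coroot Cfsg.Agent.Nodes.RGDChev Cfsg.Agent.KFacts.RgdPar
open Cfsg.Lie Cfsg.Agent.ChevalleyStructure Cfsg.Agent.ChevalleyStructure.Elts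
  Cfsg.Agent.ChevalleyStructure.RootVec Cfsg.Agent.ChevalleyStructure.NPerm
  Cfsg.Agent.ChevalleyStructure.CoxeterGeomTypes
open Cfsg.Agent.H701.F43.Cent (hF cF)
open Cfsg.Agent.H520.FC (PK VK XT cls d2)

universe u

variable {K : Type u} [Field K]

theorem ltL : ∀ r ∈ L4 ++ L1, r < chevF4.nroots := by decide +kernel

theorem Z7_eq {L : List ℕ} (hL : ∀ r ∈ L, r < chevF4.nroots) : Z7 K L = H930.FC.Q K {r | r ∈ L} := by
  refine H930.FC.Sup_eq hL fun x => ?_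
  constructor
  · rintro ⟨r, hr, rfl⟩
    exact ⟨r, hr, rfl⟩
  · rintro ⟨r, hr, rfl⟩
    exact ⟨r, hr, rfl⟩

/-- `OB3e` from (U4) -/
theorem ob3e_of [Finite K] (h4 : Z4e K) : OB3e K := by
  intro u hu hc
  refine H930.FC.spin hu fun hcon => hc (h4 u ?_)
  rw [Z7_eq fun r hr => ltL r (List.mem_append_left _ hr)]
  rw [H930.FC.V2_eq] at hcon
  exact hcon

end Cfsg.Agent.H997.FE
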